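import Cfsg.Agent.H824.FiStab
set_option linter.all false

/-!
# Groups of large Fischer type: the quotient `C_G(z) / Q` and its subgroup `A_6`

`Q M : Subgroup (C z)`, `L : Lab F4 (Q.map _) (M.map _) z`.  `mk_eq`: equality in `C / Q` is equality of the
actions on labels.  `exists_hom`: even permutations fixing a vector without zero coordinates up to scalars.
-/

set_option autoImplicit false

namespace Cfsg.Agent.H824.FiMono

open Cfsg.Agent.SporRec.GF4 Cfsg.Agent.R08 Cfsg.Agent.R08.Iface Cfsg.Agent.R08.TwoFin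
open Cfsg.Agent.R08.TwoGrp Cfsg.Agent.R08.Iface.Lab Cfsg.Agent.H824.FiStab

variable {G : Type*} [Group G] {z : G} {Q M : Subgroup (C z)}

theorem mem_map {P : Subgroup (C z)} {c : C z} : (c : G) ∈ P.map (C z).subtype ↔ c ∈ P := by
  constructor
  · rintro ⟨d, hd, h⟩
    rwa [← Subtype.ext (a1 := d) (a2 := c) h]
  · intro h
    exact ⟨c, h, rfl⟩

theorem comm (c : C z) : (c : G) * z = z * c := mem_C.1 c.2

theorem coe_of_mem {P : Subgroup (C z)} {x : G} (h : x ∈ P.map (C z).subtype) :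
    ∃ c : C z, c ∈ P ∧ (c : G) = x := h

variable (L : Lab F4 (Q.map (C z).subtype) (M.map (C z).subtype) z)

include L

theorem mem_Q {c : C z} : c ∈ Q ↔ ∀ w, L.ρ c w = w := by
  constructor
  · intro h w
    exact L.ρ_mem_Q (mem_map.2 h) w
  · intro h
    exact mem_map.1 (L.mem_Q c (comm c) h)

theorem mk_eq [Q.Normal] {c d : C z} :
    (QuotientGroup.mk c : C z ⧸ Q) = QuotientGroup.mk d ↔ ∀ w, L.ρ c w = L.ρ d w := by
  rw [QuotientGroup.eq, mem_Q L]
  constructor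
  · intro h w
    have h1 := h w
    have h2 : L.ρ ((c⁻¹ * d : C z) : G) w = L.ρ (c : G)⁻¹ (L.ρ d w) :=
      L.ρ_mul (inv_comm (comm c)) (comm d) w
    rw [h2] at h1
    rw [← L.ρ_inv' (comm c) (L.ρ d w), h1]
  · intro h w
    have h2 : L.ρ ((c⁻¹ * d : C z) : G) w = L.ρ (c : G)⁻¹ (L.ρ d w) :=
      L.ρ_mul (inv_comm (comm c)) (comm d) w
    rw [h2, ← h w, L.ρ_inv (comm c)]

/-- the homomorphism from the alternating group attached to a vector without zero coordinates -/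
theorem exists_hom [Q.Normal] (w1 : W) (h1 : ∀ i, w1 i ≠ 0) :
    ∃ φ : alternatingGroup (Fin 6) →* C z ⧸ Q, Function.Injective φ ∧
      ∀ σ, ∃ c : C z, c ∈ M ∧ QuotientGroup.mk c = φ σ ∧
        ∀ w i, L.ρ c w i = w1 i * (w1 ((σ : Equiv.Perm (Fin 6))⁻¹ i))⁻¹ *
          w ((σ : Equiv.Perm (Fin 6))⁻¹ i) := by
  have key : ∀ σ : alternatingGroup (Fin 6), ∃ c : C z, c ∈ M ∧ ∀ w i, L.ρ c w i =
      w1 i * (w1 ((σ : Equiv.Perm (Fin 6))⁻¹ i))⁻¹ * w ((σ : Equiv.Perm (Fin 6))⁻¹ i) := by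
    intro σ
    have hs : Equiv.Perm.sign (σ : Equiv.Perm (Fin 6)) = 1 := Equiv.Perm.mem_alternatingGroup.1 σ.2
    let u : Fin 6 → F4ˣ := fun i => Units.mk0 (w1 i) (h1 i)
    obtain ⟨m, ⟨c, hc, rfl⟩, hm⟩ := L.mono σ (fun i => u i * (u ((σ : Equiv.Perm (Fin 6))⁻¹ i))⁻¹) hs
      (by
        rw [Finset.prod_mul_distrib, Finset.prod_inv_distrib,
          Equiv.prod_comp (σ : Equiv.Perm (Fin 6))⁻¹ u, mul_inv_cancel])
    refine ⟨c, hc, fun w i => ?_⟩
    have := hm w i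
    rw [Subgroup.coe_subtype] at this
    rw [this]
    simp [u]
  choose f hfM hf using key
  have hmul : ∀ σ τ w, L.ρ (f (σ * τ)) w = L.ρ (f σ) (L.ρ (f τ) w) := by
    intro σ τ w
    ext i
    rw [hf, hf, hf]
    have e : ((σ * τ : alternatingGroup (Fin 6)) : Equiv.Perm (Fin 6))⁻¹ i =
        (τ : Equiv.Perm (Fin 6))⁻¹ ((σ : Equiv.Perm (Fin 6))⁻¹ i) := by
      rw [Subgroup.coe_mul, mul_inv_rev, Equiv.Perm.mul_apply]
    rw [e]
    have h2 := h1 ((σ : Equiv.Perm (Fin 6))⁻¹ i)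
    field_simp
  refine ⟨MonoidHom.mk' (fun σ => QuotientGroup.mk (f σ)) ?_, ?_, fun σ => ⟨f σ, hfM σ, rfl, hf σ⟩⟩
  · intro σ τ
    rw [← QuotientGroup.mk_mul, mk_eq L]
    intro w
    rw [hmul]
    exact (L.ρ_mul (comm _) (comm _) w).symm
  · intro σ τ h
    have h2 := (mk_eq L).1 h
    apply Subtype.ext
    have h3 : (σ : Equiv.Perm (Fin 6))⁻¹ = (τ : Equiv.Perm (Fin 6))⁻¹ := by
      ext i
      by_contra hne
      have h4 := congrFun (h2 (Pi.single ((σ : Equiv.Perm (Fin 6))⁻¹ i) 1)) i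
      rw [hf, hf, Pi.single_eq_same, Pi.single_eq_of_ne (fun h => hne (by rw [← h])), mul_zero,
        mul_one] at h4
      exact mul_ne_zero (h1 _) (inv_ne_zero (h1 _)) h4
    exact inv_injective h3

end Cfsg.Agent.H824.FiMono
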