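import Cfsg.Agent.H824.FiBase
set_option linter.all false

/-!
# Groups of large Fischer type: stabilisers of labels

For `L : Lab F4 Q M z` the centraliser `C` of `z` acts on `F4 ^ 6` through `L.ρ`; `stab L w` is the
stabiliser of a label.  Orders: `card_stabR`, `card_stabS`.
-/

set_option autoImplicit false

namespace Cfsg.Agent.H824.FiStab

open Cfsg.Agent.SporRec.GF4 Cfsg.Agent.R08 Cfsg.Agent.R08.Iface Cfsg.Agent.R08.TwoFin
open Cfsg.Agent.R08.TwoGrp Cfsg.Agent.R08.Iface.Lab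

variable {G : Type*} [Group G] {Q M : Subgroup G} {z : G}

/-- the centraliser -/
abbrev C (z : G) : Subgroup G := Subgroup.centralizer ({z} : Set G)

theorem mem_C {c : G} : c ∈ C z ↔ c * z = z * c := Subgroup.mem_centralizer_singleton_iff

/-- the action on labels -/
@[reducible] noncomputable def labAct (L : Lab F4 Q M z) : MulAction (C z) W where
  smul c w := L.ρ c w
  one_smul w := L.ρ_one w
  mul_smul c d w := L.ρ_mul (mem_C.1 c.2) (mem_C.1 d.2) w

/-- stabiliser of a label -/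
noncomputable def stab (L : Lab F4 Q M z) (w : W) : Subgroup (C z) where
  carrier := {c | L.ρ c w = w}
  one_mem' := L.ρ_one w
  mul_mem' := by
    intro a b ha hb
    show L.ρ (a * b) w = w
    rw [L.ρ_mul (mem_C.1 a.2) (mem_C.1 b.2), show L.ρ b w = w from hb]
    exact ha
  inv_mem' := by
    intro a ha
    show L.ρ (a : G)⁻¹ w = w
    have h := L.ρ_inv (mem_C.1 a.2) w
    rwa [show L.ρ a w = w from ha] at h

theorem mem_stab (L : Lab F4 Q M z) {w : W} {c : C z} : c ∈ stab L w ↔ L.ρ c w = w := Iff.rfl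

theorem card_orbit (L : Lab F4 Q M z) [Finite G] (w : W) (P : W → Prop)
    (h1 : ∀ c, c * z = z * c → ∀ v, P v → P (L.ρ c v)) (hw : P w)
    (h2 : ∀ v, P v → ∃ m ∈ M, L.ρ m w = v) :
    Nat.card (stab L w) * Nat.card {v : W // P v} = Nat.card (C z) := by
  let _ := labAct L
  have h3 := MulAction.index_stabilizer (C z) w
  have h4 : MulAction.stabilizer (C z) w = stab L w := rfl
  have h5 : MulAction.orbit (C z) w = {v | P v} := by
    ext v
    constructor
    · rintro ⟨c, rfl⟩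
      exact h1 c (mem_C.1 c.2) w hw
    · intro hv
      obtain ⟨m, hm, h⟩ := h2 v hv
      exact ⟨⟨m, mem_C.2 (L.M_comm m hm)⟩, h⟩
  rw [h4, h5] at h3
  have h6 : Nat.card {v : W // P v} = Set.ncard {v | P v} := rfl
  rw [h6, ← h3]
  exact Subgroup.card_mul_index _

theorem card_C (L : Lab F4 Q M z) [Finite G] : Nat.card (C z) = 2 * (9797760 * 2 ^ 13) := by
  rw [L.cardC, L.cardM, TwoGrp.card_Q L]

theorem card_stabS (L : Lab F4 Q M z) [Finite G] {w : W} (hw : IsS w) :
    Nat.card (stab L w) = 11520 * 2 ^ 13 := by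
  have h := card_orbit L w IsS (fun c hc v hv => (TwoTr.isS_ρ L hc v).2 hv) hw
    (fun v hv => L.transS w v hw hv)
  rw [Geo.card_S, card_C L] at h
  omega

theorem card_stabR (L : Lab F4 Q M z) [Finite G] {w : W} (hw : IsR w) :
    Nat.card (stab L w) = 51840 * 2 ^ 13 := by
  have h := card_orbit L w IsR (fun c hc v hv => (TwoTr.isR_ρ L hc v).2 hv) hw
    (fun v hv => L.transR w v hw hv)
  rw [Geo.card_R, card_C L] at h
  omega

theorem card_map_mk {H : Type*} [Group H] [Finite H] (N B : Subgroup H) [N.Normal] :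
    Nat.card (B.map (QuotientGroup.mk' N)) * Nat.card ↥(N ⊓ B) = Nat.card B := by
  have h1 := Subgroup.card_mul_index ((QuotientGroup.mk' N).domRestrict B).ker
  rw [Subgroup.index_ker, MonoidHom.domRestrict_range, MonoidHom.ker_domRestrict,
    QuotientGroup.ker_mk', ← Subgroup.inf_subgroupOf_right,
    Nat.card_congr (Subgroup.subgroupOfEquivOfLe inf_le_right).toEquiv] at h1
  rw [← h1, mul_comm]

/-! ### the pair `z`, `a ∈ Q` -/

open Cfsg.Agent.LargeExtra.Base

theorem duo (L : Lab F4 Q M z) [Finite G] {g : G} (h1 : g * z * g⁻¹ ∈ Q) (h2 : g * z * g⁻¹ ≠ z) :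
    Duo L (L.conj' g (g * z * g⁻¹) rfl) where
  pair := pair_of_conj L.large h1 h2
  tb x := L.twoB_conj' _ _ _ x
  ta x := L.twoA_conj' _ _ _ x
  disj _ h h' := FusQ.not_twoB_of_twoA L h h'

/-- `|D_s| = 64` -/
theorem card_InD0 : Nat.card {w : W // InD s0 w} = 64 := by
  classical
  rw [Nat.card_eq_fintype_card, Fintype.card_subtype,
    ModVec.card_W (P := fun v => InD s0 v) (p := fun a b c d e f => dC ⟨a, b, c, d, e, f⟩)
      (fun v => by
        rw [← dC_iff]
        exact iff_of_eq (congrArg (InD s0) (toW_code v).symm))]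
  decide +kernel

theorem card_InD (L : Lab F4 Q M z) {s : W} (hs : IsS s) : Nat.card {w : W // InD s w} = 64 := by
  obtain ⟨m, hm, rfl⟩ := TwoTr.exists_m L hs
  have hmz := L.M_comm m hm
  rw [← card_InD0]
  symm
  refine Nat.card_congr (Equiv.ofBijective
    (fun w => (⟨L.ρ m w, (TwoTr.inD_ρ L hmz _ _).2 w.2⟩ : {w : W // InD (L.ρ m s0) w})) ⟨?_, ?_⟩)
  · intro u v h
    exact Subtype.ext (L.ρ_inj hmz (congrArg Subtype.val h))
  · rintro ⟨v, hv⟩
    refine ⟨⟨L.ρ m⁻¹ v, ?_⟩, Subtype.ext (L.ρ_inv' hmz v)⟩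
    rwa [← TwoTr.inD_ρ L hmz, L.ρ_inv' hmz]

/-- the order of the preimage of a set of labels -/
theorem card_pre (L : Lab F4 Q M z) (P : Subgroup G) (hP : P ≤ Q) (T : W → Prop)
    (h : ∀ x ∈ Q, x ∈ P ↔ T (L.v x)) (h0 : T 0) : Nat.card P = 2 * Nat.card {w : W // T w} := by
  have h1 := Subgroup.card_mul_index (FusQ.vHom L P hP).ker
  rw [Subgroup.index_ker] at h1
  have hzP : z ∈ P := by rw [h z L.large.z_mem, L.v_z]; exact h0
  have h3 : Nat.card (FusQ.vHom L P hP).ker = 2 := by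
    rw [Nat.card_eq_two_iff]
    refine ⟨1, ⟨⟨z, hzP⟩, (FusQ.mem_ker L P hP _).2 (Or.inr rfl)⟩, ?_, ?_⟩
    · intro he
      have h4 : (1 : G) = z := congrArg (fun y : (FusQ.vHom L P hP).ker => ((y : P) : G)) he
      exact L.large.z_ne h4.symm
    · ext x
      simp only [Set.mem_insert_iff, Set.mem_singleton_iff, Set.mem_univ, iff_true]
      rcases (FusQ.mem_ker L P hP _).1 x.2 with hx | hx
      · left; exact Subtype.ext (Subtype.ext hx)
      · right; exact Subtype.ext (Subtype.ext hx)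
  have h2 : Nat.card (FusQ.vHom L P hP).range = Nat.card {w : W // T w} := by
    refine Nat.card_congr (Equiv.ofBijective
      (fun y => (⟨Multiplicative.toAdd y.1, ?_⟩ : {w : W // T w})) ⟨?_, ?_⟩)
    · obtain ⟨x, hx⟩ := y.2
      rw [← hx]
      exact (h x (hP x.2)).1 x.2
    · intro y y' hyy
      apply Subtype.ext
      exact congrArg (fun t : {w : W // T w} => (t : W)) hyy
    · rintro ⟨w, hw⟩
      obtain ⟨x, hx, rfl⟩ := L.v_surj w
      exact ⟨⟨Multiplicative.ofAdd (L.v x), ⟨x, (h x hx).2 hw⟩, rfl⟩, rfl⟩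
  rw [← h1, h2, h3]

theorem inD_zero (s : W) : InD s 0 := by
  intro r _
  left
  exact Geo.H_zero_left r

section Duo

variable {A N : Subgroup G} {a : G} {L : Lab F4 Q M z} {La : Lab F4 A N a}

theorem card_inf (d : Duo L La) [Finite G] : Nat.card ↥(Q ⊓ A) = 2 ^ 7 := by
  rw [card_pre L (Q ⊓ A) inf_le_left (InD (L.v a)) (fun x hx => by
    rw [← d.mem_iff hx, Subgroup.mem_inf]; exact ⟨fun h => h.2, fun h => ⟨hx, h⟩⟩)
    (inD_zero _), card_InD L d.isS]
  norm_num

theorem card_A (_d : Duo L La) [Finite G] : Nat.card A = 2 ^ 13 := TwoGrp.card_Q La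

/-- `|C_A(z)| = 2 ^ 12` -/
theorem card_centA (d : Duo L La) [Finite G] : Nat.card ↥(C z ⊓ A) = 2 ^ 12 := by
  have h := Cfsg.Agent.LargeExtra.Local.card_centralizer La.large d.symm.pair.a_mem
    L.large.z_ne d.symm.pair.ne
  rw [card_A d] at h
  have h2 : Nat.card ↥(C z ⊓ A) * 2 = 2 ^ 13 := h
  omega

end Duo

end Cfsg.Agent.H824.FiStab
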