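import Cfsg.Agent.H824.FiV2
set_option linter.all false

/-!
# Groups of large Fischer type: `C(V)` and `R = (Q ∩ C(V)) (A ∩ C(V))`
-/

set_option autoImplicit false

namespace Cfsg.Agent.H824.FiV3

open Cfsg.Agent.SporRec.GF4 Cfsg.Agent.R08 Cfsg.Agent.R08.Iface Cfsg.Agent.R08.TwoFin
open Cfsg.Agent.R08.TwoGrp Cfsg.Agent.R08.Iface.Lab Cfsg.Agent.H824.FiStab Cfsg.Agent.H824.FiV
open Cfsg.Agent.H824.FiV2
open Subgroup

variable {G : Type*} [Group G] [Finite G] {Q M A N : Subgroup G} {z a : G}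
variable {L : Lab F4 Q M z} {La : Lab F4 A N a}

theorem VV_symm (d : Duo L La) : VV L (L.v a) = VV La (La.v z) := by
  ext x
  exact d.p4

theorem a_mem (d : Duo L La) : a ∈ VV L (L.v a) := ⟨d.pair.a_mem, 1, by rw [one_smul]⟩

theorem VV_le_A (d : Duo L La) : VV L (L.v a) ≤ A := by
  rw [VV_symm d]; exact VV_le La

theorem cent_a (d : Duo L La) {c : G} (hc : c ∈ centralizer (VV L (L.v a) : Set G)) : c * a = a * c :=
  (mem_centralizer_iff.1 hc a (a_mem d)).symm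

theorem cent_le_M (d : Duo L La) : centralizer (VV L (L.v a) : Set G) ≤ M := fun _ hc =>
  d.mem_M_of_fix (cent_z L hc) (isS_ne d.isS) (cent_fix_one L hc) (cent_fix L hc _)

theorem inf_le_cent (d : Duo L La) : Q ⊓ A ≤ centralizer (VV L (L.v a) : Set G) := by
  intro x hx
  rw [mem_centralizer_iff]
  intro y hy
  exact d.pair.comm_D hy.1 (VV_le_A d hy) (mem_inf.1 hx).1 (mem_inf.1 hx).2

theorem VV_le_cent (d : Duo L La) : VV L (L.v a) ≤ centralizer (VV L (L.v a) : Set G) := by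
  intro x hx
  rw [mem_centralizer_iff]
  intro y hy
  exact VV_comm L (isS_iso d.isS) hy hx

/-- **commutators of `Q ∩ C(V)` and `A ∩ C(V)`** -/
theorem comm_QA (d : Duo L La) {q y : G} (hq : q ∈ Q) (hqc : q ∈ centralizer (VV L (L.v a) : Set G))
    (hy : y ∈ A) (hyc : y ∈ centralizer (VV L (L.v a) : Set G)) :
    y * q * y⁻¹ * q⁻¹ ∈ VV L (L.v a) := by
  have hyz := cent_z L hyc
  have hyM := cent_le_M d hyc
  have hqs := (mem_cent_Q L hq).1 hqc
  -- for all elements of `Q ∩ C(V)`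
  have key : ∀ q ∈ Q, H (L.v q) (L.v a) = 0 → y * q * y⁻¹ * q⁻¹ ∈ Q ∧
      InD (L.v a) (L.v (y * q * y⁻¹ * q⁻¹)) ∧ L.v (y * q * y⁻¹ * q⁻¹) = L.ρ y (L.v q) + L.v q := by
    intro q hq hqs
    have h1 : y * q * y⁻¹ ∈ Q := L.large.conj_mem y hyz q hq
    have h2 : y * q * y⁻¹ * q⁻¹ ∈ Q := Q.mul_mem h1 (Q.inv_mem hq)
    have hqa : q * a = a * q := by
      rw [L.comm_iff q hq a d.pair.a_mem, hqs]; left; rfl
    have h3 : q * y⁻¹ * q⁻¹ ∈ A := La.large.conj_mem q hqa _ (A.inv_mem hy)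
    have h4 : y * q * y⁻¹ * q⁻¹ ∈ A := by
      have : y * q * y⁻¹ * q⁻¹ = y * (q * y⁻¹ * q⁻¹) := by group
      rw [this]; exact A.mul_mem hy h3
    refine ⟨h2, (d.mem_iff h2).1 h4, ?_⟩
    rw [L.v_mul _ h1 _ (Q.inv_mem hq), L.v_conj y hyz q hq, L.v_inv hq]
  obtain ⟨h1, h2, h3⟩ := key q hq hqs
  refine ⟨h1, ?_⟩
  by_contra hn
  obtain ⟨r, hr, hr1⟩ := TwoTr.D_nondeg L d.isS h2 hn
  obtain ⟨q', hq', hqv⟩ := L.v_surj (F4.w • L.v q)
  obtain ⟨-, h5, h6⟩ := key q' hq' (by rw [hqv, H_smul_left, hqs, mul_zero])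
  have h7 : L.v (y * q' * y⁻¹ * q'⁻¹) = F4.w • L.v (y * q * y⁻¹ * q⁻¹) := by
    rw [h6, h3, hqv, (L.isLin hyM).smul, smul_add]
  have h8 := h5 r hr
  rw [h7, H_smul_left, hr1, mul_one] at h8
  rcases h8 with h8 | h8 <;> exact absurd h8 (by decide)

/-- elements of `C(V)` centralising `Q ∩ C(V)` lie in `V` -/
theorem mem_VV_of_comm (d : Duo L La) {x : G} (hx : x ∈ centralizer (VV L (L.v a) : Set G))
    (hc : ∀ q ∈ Q, q ∈ centralizer (VV L (L.v a) : Set G) → x * q = q * x) : x ∈ VV L (L.v a) := by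
  have hxz := cent_z L hx
  have hxM := cent_le_M d hx
  have hfix : ∀ w, H w (L.v a) = 0 → L.ρ x w = w := by
    intro w hw
    obtain ⟨q, hq, rfl⟩ := L.v_surj w
    rw [← L.v_conj x hxz q hq, hc q hq ((mem_cent_Q L hq).2 hw), mul_inv_cancel_right]
  have hid : ∀ w, L.ρ x w = w := by
    refine (id_or_tr (isS_ne d.isS) (isS_iso d.isS) (L.ρ_add hxz) (L.isLin hxM) hfix).resolve_right
      fun h1 => ?_
    obtain ⟨t, ht, ht'⟩ := TwoTr.tau L d.isS
    apply ht'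
    rw [← h1]
    exact L.pres _ hxz _ ht
  have hxQ : x ∈ Q := L.mem_Q x hxz hid
  refine ⟨hxQ, perp_perp (isS_ne d.isS) fun w hw => ?_⟩
  obtain ⟨q, hq, hqv⟩ := L.v_surj w
  obtain ⟨q', hq', hqv'⟩ := L.v_surj (F4.w • w)
  have h1 := (L.comm_iff x hxQ q hq).1 (hc q hq ((mem_cent_Q L hq).2 (by rw [hqv]; exact hw)))
  have h2 := (L.comm_iff x hxQ q' hq').1 (hc q' hq' ((mem_cent_Q L hq').2 (by
    rw [hqv', H_smul_left, hw, mul_zero])))
  rw [hqv] at h1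
  rw [hqv', H_smul_right] at h2
  revert h1 h2
  generalize H (L.v x) w = t
  revert t; decide

/-! ### the subgroup `R` of `C(V)` -/

theorem normal_Q' (L : Lab F4 Q M z) (s : W) : (Q.subgroupOf (centralizer (VV L s : Set G))).Normal := by
  constructor
  intro n hn g
  rw [mem_subgroupOf] at hn ⊢
  exact L.large.conj_mem g (cent_z L g.2) n hn

theorem normal_A' (d : Duo L La) : (A.subgroupOf (centralizer (VV L (L.v a) : Set G))).Normal := by
  constructor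
  intro n hn g
  rw [mem_subgroupOf] at hn ⊢
  exact La.large.conj_mem g (cent_a d g.2) n hn

/-- `R` as a subgroup of `C(V)` -/
def RR (A : Subgroup G) (L : Lab F4 Q M z) (s : W) : Subgroup (centralizer (VV L s : Set G)) :=
  Q.subgroupOf (centralizer (VV L s : Set G)) ⊔ A.subgroupOf (centralizer (VV L s : Set G))

theorem normal_RR (d : Duo L La) : (RR A L (L.v a)).Normal := by
  have h1 := normal_Q' L (L.v a)
  have h2 := normal_A' d
  unfold RR
  infer_instance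

theorem mem_RR (d : Duo L La) {x : centralizer (VV L (L.v a) : Set G)} :
    x ∈ RR A L (L.v a) ↔ ∃ q y : centralizer (VV L (L.v a) : Set G), (q : G) ∈ Q ∧ (y : G) ∈ A ∧ q * y = x := by
  have h2 := normal_A' d
  unfold RR
  rw [mem_sup_of_normal_right]
  constructor
  · rintro ⟨q, hq, y, hy, h⟩
    exact ⟨q, y, mem_subgroupOf.1 hq, mem_subgroupOf.1 hy, h⟩
  · rintro ⟨q, y, hq, hy, h⟩
    exact ⟨q, mem_subgroupOf.2 hq, y, mem_subgroupOf.2 hy, h⟩

theorem card_sup {H : Type*} [Group H] [Finite H] (B N : Subgroup H) [N.Normal] :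
    Nat.card ↥(B ⊔ N) * Nat.card ↥(N ⊓ B) = Nat.card B * Nat.card N := by
  have h1 := card_map_mk N (B ⊔ N)
  have h2 := card_map_mk N B
  have h3 : (B ⊔ N).map (QuotientGroup.mk' N) = B.map (QuotientGroup.mk' N) := by
    rw [Subgroup.map_sup]
    have h4 : N.map (QuotientGroup.mk' N) = ⊥ := by
      rw [(Subgroup.map_eq_bot_iff _), QuotientGroup.ker_mk']
    rw [h4, sup_bot_eq]
  rw [h3, inf_eq_left.2 (le_sup_right : N ≤ B ⊔ N)] at h1
  rw [← h1, ← h2]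
  ring

theorem card_RR (d : Duo L La) : Nat.card (RR A L (L.v a)) = 2 ^ 15 := by
  have h2 := normal_A' d
  have h1 := card_sup (Q.subgroupOf (centralizer (VV L (L.v a) : Set G)))
    (A.subgroupOf (centralizer (VV L (L.v a) : Set G)))
  have h3 : Nat.card (Q.subgroupOf (centralizer (VV L (L.v a) : Set G))) = 2 ^ 11 := by
    rw [card_subgroupOf, card_Q_cent L d.isS]
  have h4 : Nat.card (A.subgroupOf (centralizer (VV L (L.v a) : Set G))) = 2 ^ 11 := by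
    rw [card_subgroupOf, VV_symm d, card_Q_cent La d.symm.isS]
  have h5 : Nat.card ↥(A.subgroupOf (centralizer (VV L (L.v a) : Set G)) ⊓
      Q.subgroupOf (centralizer (VV L (L.v a) : Set G))) = 2 ^ 7 := by
    rw [← card_inf d, inf_comm]
    exact Nat.card_congr (subgroupOfEquivOfLe (inf_le_cent d)).toEquiv
  rw [h3, h4, h5] at h1
  have h6 : Nat.card (RR A L (L.v a)) * 2 ^ 7 = 2 ^ 11 * 2 ^ 11 := h1
  exact Nat.eq_of_mul_eq_mul_right (by norm_num : 0 < 2 ^ 7) (h6.trans (by norm_num))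

theorem card_quot (d : Duo L La) : Nat.card (centralizer (VV L (L.v a) : Set G) ⧸ RR A L (L.v a)) = 360 := by
  have h1 := Subgroup.card_eq_card_quotient_mul_card_subgroup (RR A L (L.v a))
  rw [card_RR d, card_cent L d.isS (cent_le_M d)] at h1
  have h2 : 5760 * 2 ^ 11 = 360 * 2 ^ 15 := by norm_num
  rw [h2] at h1
  exact (Nat.eq_of_mul_eq_mul_right (by norm_num) h1).symm

/-! ### `C(V) / R ≅ A₆` -/

/-- the vector `(1, 1, 1, 1, 1, ω)` -/
def w1 : W := ![1, 1, 1, 1, 1, F4.w]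

theorem w1_ne (i : Fin 6) : w1 i ≠ 0 := by
  fin_cases i <;> simp [w1]

theorem isS_w1 : IsS w1 := by
  rw [Geo.isS_iff]; decide

/-- the monomial map fixing `w1` with permutation part `σ` -/
def PP (σ : Equiv.Perm (Fin 6)) (w : W) : W := fun i => w1 i * (w1 (σ⁻¹ i))⁻¹ * w (σ⁻¹ i)

theorem PP_mul (σ τ : Equiv.Perm (Fin 6)) (w : W) : PP (σ * τ) w = PP σ (PP τ w) := by
  ext i
  have e : (σ * τ)⁻¹ i = τ⁻¹ (σ⁻¹ i) := by
    rw [mul_inv_rev, Equiv.Perm.mul_apply]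
  show w1 i * (w1 ((σ * τ)⁻¹ i))⁻¹ * w ((σ * τ)⁻¹ i) =
    w1 i * (w1 (σ⁻¹ i))⁻¹ * (w1 (σ⁻¹ i) * (w1 (τ⁻¹ (σ⁻¹ i)))⁻¹ * w (τ⁻¹ (σ⁻¹ i)))
  rw [e]
  have h2 := w1_ne (σ⁻¹ i)
  field_simp

theorem PP_w1 (σ : Equiv.Perm (Fin 6)) : PP σ w1 = w1 := by
  ext i
  show w1 i * (w1 (σ⁻¹ i))⁻¹ * w1 (σ⁻¹ i) = w1 i
  rw [inv_mul_cancel_right₀ (w1_ne _)]

theorem PP_inj {σ τ : Equiv.Perm (Fin 6)} (h : ∀ w, PP σ w = PP τ w) : σ = τ := by
  have h3 : σ⁻¹ = τ⁻¹ := by
    ext i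
    by_contra hne
    have h4 := congrFun (h (Pi.single (σ⁻¹ i) 1)) i
    have h5 : w1 i * (w1 (σ⁻¹ i))⁻¹ * (Pi.single (σ⁻¹ i) 1 : W) (σ⁻¹ i) =
      w1 i * (w1 (τ⁻¹ i))⁻¹ * (Pi.single (σ⁻¹ i) 1 : W) (τ⁻¹ i) := h4
    rw [Pi.single_eq_same, Pi.single_eq_of_ne (fun h => hne (by rw [← h])), mul_zero, mul_one] at h5
    exact mul_ne_zero (w1_ne _) (inv_ne_zero (w1_ne _)) h5
  exact inv_injective h3

omit [Finite G] in
theorem exists_PP (L : Lab F4 Q M z) (σ : alternatingGroup (Fin 6)) : ∃ m ∈ M, ∀ w, L.ρ m w = PP σ w := by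
  have hs : Equiv.Perm.sign (σ : Equiv.Perm (Fin 6)) = 1 := Equiv.Perm.mem_alternatingGroup.1 σ.2
  let u : Fin 6 → F4ˣ := fun i => Units.mk0 (w1 i) (w1_ne i)
  obtain ⟨m, hc, hm⟩ := L.mono σ (fun i => u i * (u ((σ : Equiv.Perm (Fin 6))⁻¹ i))⁻¹) hs
    (by
      rw [Finset.prod_mul_distrib, Finset.prod_inv_distrib,
        Equiv.prod_comp (σ : Equiv.Perm (Fin 6))⁻¹ u, mul_inv_cancel])
  refine ⟨m, hc, fun w => ?_⟩
  ext i
  rw [hm w i]
  simp [u, PP]

theorem mk_eq (d : Duo L La) {c e : centralizer (VV L (L.v a) : Set G)} :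
    (QuotientGroup.mk c : _ ⧸ Q.subgroupOf (centralizer (VV L (L.v a) : Set G))) = QuotientGroup.mk e ↔
      ∀ w, L.ρ c w = L.ρ e w := by
  have hc := cent_z L c.2
  have he := cent_z L e.2
  have hce : ∀ w, L.ρ ((c⁻¹ * e : centralizer (VV L (L.v a) : Set G)) : G) w = L.ρ (c : G)⁻¹ (L.ρ e w) :=
    fun w => L.ρ_mul (Lab.inv_comm hc) he w
  rw [QuotientGroup.eq, mem_subgroupOf]
  constructor
  · intro h w
    have h1 := L.ρ_mem_Q h w
    rw [hce] at h1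
    rw [← L.ρ_inv' hc (L.ρ e w), h1]
  · intro h
    apply L.mem_Q _ (cent_z L (c⁻¹ * e).2)
    intro w
    rw [hce, ← h w, L.ρ_inv hc]

/-- **`C(V) / R ≅ A₆`** -/
theorem equiv_a6 (d : Duo L La) :
    ∃ _ : (RR A L (L.v a)).Normal,
      Nonempty (centralizer (VV L (L.v a) : Set G) ⧸ RR A L (L.v a) ≃* alternatingGroup (Fin 6)) := by
  have hnR := normal_RR d
  refine ⟨hnR, ?_⟩
  have hnQ := normal_Q' L (L.v a)
  obtain ⟨m0, hm0, hm0'⟩ := L.transS w1 (L.v a) isS_w1 d.isS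
  have hz0 := L.M_comm m0 hm0
  have key : ∀ σ : alternatingGroup (Fin 6), ∃ c : centralizer (VV L (L.v a) : Set G),
      ∀ w, L.ρ c w = L.ρ m0 (PP σ (L.ρ m0⁻¹ w)) := by
    intro σ
    obtain ⟨n, hn, hnw⟩ := exists_PP L σ
    have hnz := L.M_comm n hn
    have hw : ∀ w, L.ρ (m0 * n * m0⁻¹) w = L.ρ m0 (PP σ (L.ρ m0⁻¹ w)) := by
      intro w
      rw [L.ρ_mul (mul_comm' hz0 hnz) (Lab.inv_comm hz0), L.ρ_mul hz0 hnz, hnw]
    have hm : m0 * n * m0⁻¹ ∈ M := M.mul_mem (M.mul_mem hm0 hn) (M.inv_mem hm0)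
    obtain ⟨c, hc, -, hcw⟩ := exists_cent L hm (by
      rw [hw, ← hm0', L.ρ_inv hz0, PP_w1]) (isS_ne d.isS)
    exact ⟨⟨c, hc⟩, fun w => by rw [hcw, hw]⟩
  choose f hf using key
  let θ0 : alternatingGroup (Fin 6) →* centralizer (VV L (L.v a) : Set G) ⧸
      Q.subgroupOf (centralizer (VV L (L.v a) : Set G)) :=
    MonoidHom.mk' (fun σ => QuotientGroup.mk (f σ)) (by
      intro σ τ
      rw [← QuotientGroup.mk_mul, mk_eq d]
      intro w
      have h1 : L.ρ ((f σ * f τ : centralizer (VV L (L.v a) : Set G)) : G) w =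
        L.ρ (f σ) (L.ρ (f τ) w) := L.ρ_mul (cent_z L (f σ).2) (cent_z L (f τ).2) w
      rw [h1, hf, hf, hf, L.ρ_inv hz0, Subgroup.coe_mul, PP_mul])
  have hθ0 : Function.Injective θ0 := by
    intro σ τ h
    have h2 := (mk_eq d).1 h
    apply Subtype.ext
    apply PP_inj
    intro w
    have h3 := h2 (L.ρ m0 w)
    rw [hf, hf, L.ρ_inv hz0] at h3
    exact L.ρ_inj hz0 h3
  have hle : Q.subgroupOf (centralizer (VV L (L.v a) : Set G)) ≤ RR A L (L.v a) := le_sup_left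
  let π : centralizer (VV L (L.v a) : Set G) ⧸ Q.subgroupOf (centralizer (VV L (L.v a) : Set G)) →*
      centralizer (VV L (L.v a) : Set G) ⧸ RR A L (L.v a) :=
    QuotientGroup.map _ _ (MonoidHom.id _) hle
  let θ := π.comp θ0
  have hsimple := ProdLem.simple_a6
  have hker : θ.ker = ⊥ := by
    refine (hsimple.eq_bot_or_eq_top_of_normal θ.ker inferInstance).resolve_right fun h => ?_
    -- everything lies in `R / (Q ∩ C(V))`, of order 16
    have h1 : ∀ σ, θ0 σ ∈ (RR A L (L.v a)).map (QuotientGroup.mk' (Q.subgroupOf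
        (centralizer (VV L (L.v a) : Set G)))) := by
      intro σ
      have h2 : σ ∈ θ.ker := by rw [h]; trivial
      have h3 : (QuotientGroup.mk (f σ) : _ ⧸ RR A L (L.v a)) = 1 := h2
      exact ⟨f σ, (QuotientGroup.eq_one_iff _).1 h3, rfl⟩
    have h2 : Nat.card (alternatingGroup (Fin 6)) ≤ Nat.card ((RR A L (L.v a)).map (QuotientGroup.mk'
        (Q.subgroupOf (centralizer (VV L (L.v a) : Set G))))) := by
      refine Nat.card_le_card_of_injective (fun σ => (⟨_, h1 σ⟩ : ((RR A L (L.v a)).map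
        (QuotientGroup.mk' (Q.subgroupOf (centralizer (VV L (L.v a) : Set G))))))) ?_
      intro σ τ h3
      exact hθ0 (congrArg Subtype.val h3)
    have h3 := card_map_mk (Q.subgroupOf (centralizer (VV L (L.v a) : Set G))) (RR A L (L.v a))
    rw [inf_eq_left.2 hle, card_RR d, card_subgroupOf, card_Q_cent L d.isS] at h3
    rw [ProdLem.card_a6] at h2
    omega
  have hbij : Function.Bijective θ := by
    rw [Nat.bijective_iff_injective_and_card]
    exact ⟨(MonoidHom.ker_eq_bot_iff θ).1 hker, by rw [ProdLem.card_a6, card_quot d]⟩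
  exact ⟨(MulEquiv.ofBijective θ hbij).symm⟩

end Cfsg.Agent.H824.FiV3
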