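import Cfsg.Agent.H824.FiV5
set_option linter.all false

/-!
# Groups of large Fischer type: the elementary abelian `2³`-local
-/

set_option autoImplicit false

namespace Cfsg.Agent.H824.FiV6

open Cfsg Cfsg.Agent.SporRec.GF4 Cfsg.Agent.R08 Cfsg.Agent.R08.Iface Cfsg.Agent.R08.TwoFin
open Cfsg.Agent.R08.TwoGrp Cfsg.Agent.R08.Iface.Lab Cfsg.Agent.H824.FiStab Cfsg.Agent.H824.FiV
open Cfsg.Agent.H824.FiV2 Cfsg.Agent.H824.FiV3 Cfsg.Agent.H824.FiV4 Cfsg.Agent.H824.FiV5
open Subgroup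
open scoped commutatorElement

variable {G : Type*} [Group G] [Finite G] {Q M A N : Subgroup G} {z a : G}
variable {L : Lab F4 Q M z} {La : Lab F4 A N a}

theorem not_pGroup {p q : ℕ} [hp : Fact p.Prime] (hq : q.Prime) (hpq : p ≠ q) {S : Type*} [Group S]
    (h : q ∣ Nat.card S) [Finite S] : ¬ IsPGroup p S := by
  intro h1
  obtain ⟨n, hn⟩ := IsPGroup.iff_card.1 h1
  rw [hn] at h
  exact hpq ((Nat.prime_dvd_prime_iff_eq hq hp.out).1 (hq.dvd_of_dvd_pow h)).symm

theorem main_local (d : Duo L La) (hnwc : ∃ g : G, g * z * g⁻¹ ∈ Q ∧ g * z * g⁻¹ ≠ z) :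
    R0 A L (L.v a) = (pCore 2 (normalizer (VV L (L.v a) : Set G))).map
        (normalizer (VV L (L.v a) : Set G)).subtype ∧
      ∃ _ : ((R0 A L (L.v a)).subgroupOf (normalizer (VV L (L.v a) : Set G))).Normal,
        Nonempty (normalizer (VV L (L.v a) : Set G) ⧸
          (R0 A L (L.v a)).subgroupOf (normalizer (VV L (L.v a) : Set G)) ≃*
            ProdLem.SL32 × alternatingGroup (Fin 6)) := by
  have f2 : Fact (Nat.Prime 2) := ⟨Nat.prime_two⟩
  obtain ⟨hCN, ⟨eT⟩⟩ := equiv_sl L hnwc d.isS (cent_le_M d)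
  obtain ⟨hnR, ⟨eA⟩⟩ := equiv_a6 d
  set V := VV L (L.v a) with hV
  set NV := normalizer (V : Set G) with hNV
  set CV := centralizer (V : Set G) with hCV
  have hCNle : CV ≤ NV := cent_le_norm V
  let e : CV.subgroupOf NV ≃* CV := subgroupOfEquivOfLe hCNle
  have he : ∀ x : CV.subgroupOf NV, ((e x : CV) : G) = ((x : NV) : G) := fun x => rfl
  let R' : Subgroup (CV.subgroupOf NV) := (RR A L (L.v a)).comap e.toMonoidHom
  have hR'n : R'.Normal := hnR.comap _
  have hmap : R'.map e.toMonoidHom = RR A L (L.v a) :=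
    Subgroup.map_comap_eq_self_of_surjective e.surjective _
  have hcR' : Nat.card R' = 2 ^ 15 := by
    rw [← card_RR d, ← hmap]
    exact Nat.card_congr (Subgroup.equivMapOfInjective _ _ e.injective).toEquiv
  have hpR' : IsPGroup 2 R' := IsPGroup.of_card hcR'
  let eS : CV.subgroupOf NV ⧸ R' ≃* alternatingGroup (Fin 6) :=
    (QuotientGroup.congr R' (RR A L (L.v a)) e hmap).trans eA
  have hfS : Finite ProdLem.SL32 := Nat.finite_of_card_ne_zero (by rw [ProdLem.card_sl32]; norm_num)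
  have heq : R'.map (CV.subgroupOf NV).subtype = (R0 A L (L.v a)).subgroupOf NV := by
    ext x
    rw [mem_subgroupOf]
    constructor
    · rintro ⟨y, hy, rfl⟩
      exact ⟨e y, hy, rfl⟩
    · rintro ⟨y, hy, hyx⟩
      have hyx' : (y : G) = x := hyx
      have hx : x ∈ CV.subgroupOf NV := by
        rw [mem_subgroupOf, ← hyx']; exact y.2
      refine ⟨⟨x, hx⟩, ?_, rfl⟩
      have : e ⟨x, hx⟩ = y := Subtype.ext hyx'.symm
      show e ⟨x, hx⟩ ∈ RR A L (L.v a)
      rw [this]; exact hy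
  obtain ⟨h1, h2, h3⟩ := NormLem.main_quot (CV.subgroupOf NV) R' (p := 2) hpR' eS eT ProdLem.simple_a6
    ProdLem.simple_sl32 (not_pGroup Nat.prime_three (by norm_num) (by rw [ProdLem.card_a6]; norm_num))
    (not_pGroup Nat.prime_three (by norm_num) (by rw [ProdLem.card_sl32]; norm_num))
    (fun c h => ProdLem.center_a6 h) (q := 7) (by norm_num) (by rw [ProdLem.card_sl32]; norm_num)
    (by rw [ProdLem.card_aut_a6]; norm_num)
  rw [heq] at h1
  refine ⟨?_, ?_⟩
  · rw [h1, subgroupOf_map_subtype, inf_eq_left.2 ((R0_le A L (L.v a)).trans hCNle)]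
  · revert h2 h3
    rw [heq]
    exact fun h2 h3 => ⟨h2, h3⟩

theorem conj_R0 (d : Duo L La) (hnwc : ∃ g : G, g * z * g⁻¹ ∈ Q ∧ g * z * g⁻¹ ≠ z) {n x : G}
    (hn : n ∈ normalizer (VV L (L.v a) : Set G)) (hx : x ∈ R0 A L (L.v a)) :
    n * x * n⁻¹ ∈ R0 A L (L.v a) := by
  obtain ⟨-, h2, -⟩ := main_local d hnwc
  have hx' : x ∈ normalizer (VV L (L.v a) : Set G) := cent_le_norm _ (R0_le A L (L.v a) hx)
  exact h2.conj_mem ⟨x, hx'⟩ hx ⟨n, hn⟩

theorem special (d : Duo L La) (hnwc : ∃ g : G, g * z * g⁻¹ ∈ Q ∧ g * z * g⁻¹ ≠ z) :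
    IsSpecial 2 (R0 A L (L.v a)) ∧
      (center (R0 A L (L.v a))).map (R0 A L (L.v a)).subtype = VV L (L.v a) := by
  have f2 : Fact (Nat.Prime 2) := ⟨Nat.prime_two⟩
  have hp : IsPGroup 2 (R0 A L (L.v a)) := IsPGroup.of_card (card_R0 d)
  have hcen : ∀ x : R0 A L (L.v a), x ∈ center (R0 A L (L.v a)) ↔ (x : G) ∈ VV L (L.v a) := by
    intro x
    constructor
    · intro h
      apply mem_VV_of_center d x.2
      intro y hy
      have h1 := mem_center_iff.1 h ⟨y, hy⟩
      exact (congrArg Subtype.val h1).symm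
    · intro h
      rw [mem_center_iff]
      intro y
      apply Subtype.ext
      exact (mem_centralizer_iff.1 (R0_le A L (L.v a) y.2) x h).symm
  have h1 : commutator (R0 A L (L.v a)) ≤ center (R0 A L (L.v a)) := by
    rw [commutator_def, commutator_le]
    intro x _ y _
    rw [hcen]
    exact (quot d x.2 y.2).1
  have h2 : center (R0 A L (L.v a)) ≤ commutator (R0 A L (L.v a)) := by
    intro x hx
    have hxV := (hcen x).1 hx
    by_cases hx1 : (x : G) = 1
    · have : x = 1 := Subtype.ext hx1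
      rw [this]; exact one_mem _
    obtain ⟨n, hn, hnx⟩ := trans_VV L hnwc d.isS hxV hx1
    obtain ⟨u, hu, v, hv, huv⟩ := exists_noncomm d
    let u' : R0 A L (L.v a) := ⟨n * u * n⁻¹, conj_R0 d hnwc hn hu⟩
    let v' : R0 A L (L.v a) := ⟨n * v * n⁻¹, conj_R0 d hnwc hn hv⟩
    have h3 : ⁅u', v'⁆ = x := by
      apply Subtype.ext
      show (n * u * n⁻¹) * (n * v * n⁻¹) * (n * u * n⁻¹)⁻¹ * (n * v * n⁻¹)⁻¹ = x
      rw [← hnx, ← huv]
      group
    rw [← h3]
    exact commutator_mem_commutator (mem_top _) (mem_top _)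
  have h3 : commutator (R0 A L (L.v a)) ≤ frattini (R0 A L (L.v a)) :=
    Lib.FrattiniPGroup.commutator_le_frattini hp
  have h4 : frattini (R0 A L (L.v a)) ≤ center (R0 A L (L.v a)) := by
    apply Lib.FrattiniPGroup.frattini_le (p := 2)
    · intro x y
      exact h1 (commutator_mem_commutator (mem_top _) (mem_top _))
    · intro x
      rw [hcen]
      have := (quot d x.2 x.2).2
      have e : ((x ^ 2 : R0 A L (L.v a)) : G) = (x : G) * x := by rw [pow_two]; rfl
      rw [e]; exact this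
  refine ⟨⟨hp, le_antisymm h4 (h2.trans h3), le_antisymm h1 h2⟩, ?_⟩
  ext x
  constructor
  · rintro ⟨y, hy, rfl⟩
    exact (hcen y).1 hy
  · intro hx
    exact ⟨⟨x, VV_le_R0 d hx⟩, (hcen _).2 hx, rfl⟩

end Cfsg.Agent.H824.FiV6
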